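import Mathlib

/-! Ladder GP3 (helper93), rung ABSM (helper56). -/

set_option autoImplicit false

namespace Cfsg.Agent.Lib.Helper93.GP3

theorem absm_primesG (r : ℕ) (hr : r.Prime) (h : r ∣ 4245696) :
    r = 2 ∨ r = 3 ∨ r = 7 ∨ r = 13 := by
  have e : 4245696 = 2 ^ 6 * 3 ^ 6 * 7 * 13 := by norm_num
  rw [e] at h
  rcases (Nat.Prime.dvd_mul hr).1 h with h | h
  · rcases (Nat.Prime.dvd_mul hr).1 h with h | h
    · rcases (Nat.Prime.dvd_mul hr).1 h with h | h
      · left; exact (Nat.prime_dvd_prime_iff_eq hr Nat.prime_two).1 (hr.dvd_of_dvd_pow h)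
      · right; left
        exact (Nat.prime_dvd_prime_iff_eq hr Nat.prime_three).1 (hr.dvd_of_dvd_pow h)
    · right; right; left; exact (Nat.prime_dvd_prime_iff_eq hr (by norm_num)).1 h
  · right; right; right; exact (Nat.prime_dvd_prime_iff_eq hr (by norm_num)).1 h

theorem absm_primesP (r : ℕ) (hr : r.Prime) (h : r ∣ 1092) :
    r = 2 ∨ r = 3 ∨ r = 7 ∨ r = 13 := by
  apply absm_primesG r hr
  exact h.trans (by norm_num)

theorem absm_six (r s : ℕ) (hr : r.Prime) (hs : s.Prime) (hrs : r ≠ s) (h : r * s ∣ 6) :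
    r * s = 6 := by
  have h1 : r ∣ 2 * 3 := (Dvd.intro _ rfl).trans h
  have h2 : s ∣ 2 * 3 := (Dvd.intro_left _ rfl).trans h
  have hr' : r = 2 ∨ r = 3 := by
    rcases (Nat.Prime.dvd_mul hr).1 h1 with h | h
    · left; exact (Nat.prime_dvd_prime_iff_eq hr Nat.prime_two).1 h
    · right; exact (Nat.prime_dvd_prime_iff_eq hr Nat.prime_three).1 h
  have hs' : s = 2 ∨ s = 3 := by
    rcases (Nat.Prime.dvd_mul hs).1 h2 with h | h
    · left; exact (Nat.prime_dvd_prime_iff_eq hs Nat.prime_two).1 h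
    · right; exact (Nat.prime_dvd_prime_iff_eq hs Nat.prime_three).1 h
  rcases hr' with rfl | rfl <;> rcases hs' with rfl | rfl <;> simp_all

theorem absm_prime (r s t : ℕ) (hr : r.Prime) (hs : s.Prime) (ht : t.Prime) (hrs : r ≠ s)
    (h : r * s ∣ t) : False := by
  have h1 : r ∣ t := (Dvd.intro _ rfl).trans h
  have h2 : s ∣ t := (Dvd.intro_left _ rfl).trans h
  exact hrs (((Nat.prime_dvd_prime_iff_eq hr ht).1 h1).trans
    ((Nat.prime_dvd_prime_iff_eq hs ht).1 h2).symm)

/-- [ABSM] -/
theorem abs_main {G P : Type*} [Group G] [Finite G] [Group P] [Finite P]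
    (hG : Nat.card G = 4245696) (hP : Nat.card P = 1092)
    (h14 : ∀ y : G, orderOf y ≠ 14) (h21 : ∀ y : G, orderOf y ≠ 21)
    (h13 : ∀ (y : G) (s : ℕ), 1 < s → orderOf y ≠ 13 * s) (h6 : ∃ y : G, orderOf y = 6)
    (p6 : ∃ y : P, orderOf y = 6) (pc : ∀ y : P, y ^ 6 = 1 ∨ y ^ 7 = 1 ∨ y ^ 13 = 1) :
    (∀ r : ℕ, r.Prime → (r ∣ Nat.card G ↔ r ∣ Nat.card P)) ∧
      (∀ r s : ℕ, r.Prime → s.Prime → r ≠ s →
        ((∃ x : G, orderOf x = r * s) ↔ (∃ y : P, orderOf y = r * s))) := by
  refine ⟨?_, ?_⟩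
  · intro r hr
    rw [hG, hP]
    constructor
    · intro h
      rcases absm_primesG r hr h with rfl | rfl | rfl | rfl <;> norm_num
    · intro h
      rcases absm_primesP r hr h with rfl | rfl | rfl | rfl <;> norm_num
  · intro r s hr hs hrs
    constructor
    · rintro ⟨x, hx⟩
      have hd : r * s ∣ 4245696 := by
        rw [← hG, ← hx]; exact orderOf_dvd_natCard x
      have h1 : r ∣ 4245696 := (Dvd.intro _ rfl).trans hd
      have h2 : s ∣ 4245696 := (Dvd.intro_left _ rfl).trans hd
      rcases absm_primesG r hr h1 with rfl | rfl | rfl | rfl <;>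
        rcases absm_primesG s hs h2 with rfl | rfl | rfl | rfl
      · exact absurd rfl hrs
      · exact p6
      · exact absurd hx (h14 x)
      · exact absurd hx (by rw [mul_comm]; exact h13 x 2 (by norm_num))
      · exact p6
      · exact absurd rfl hrs
      · exact absurd hx (h21 x)
      · exact absurd hx (by rw [mul_comm]; exact h13 x 3 (by norm_num))
      · exact absurd hx (h14 x)
      · exact absurd hx (h21 x)
      · exact absurd rfl hrs
      · exact absurd hx (by rw [mul_comm]; exact h13 x 7 (by norm_num))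
      · exact absurd hx (h13 x 2 (by norm_num))
      · exact absurd hx (h13 x 3 (by norm_num))
      · exact absurd hx (h13 x 7 (by norm_num))
      · exact absurd rfl hrs
    · rintro ⟨y, hy⟩
      rcases pc y with h | h | h
      · have hd : r * s ∣ 6 := by rw [← hy]; exact orderOf_dvd_of_pow_eq_one h
        rw [absm_six r s hr hs hrs hd]
        exact h6
      · have hd : r * s ∣ 7 := by rw [← hy]; exact orderOf_dvd_of_pow_eq_one h
        exact (absm_prime r s 7 hr hs (by norm_num) hrs hd).elim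
      · have hd : r * s ∣ 13 := by rw [← hy]; exact orderOf_dvd_of_pow_eq_one h
        exact (absm_prime r s 13 hr hs (by norm_num) hrs hd).elim

end Cfsg.Agent.Lib.Helper93.GP3
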