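import Cfsg.Agent.Lib.Helper93.GP3.Defs

set_option autoImplicit false

namespace Cfsg.Agent.Lib.Helper93.GP3

open Cfsg.Lie Matrix Cfsg.Agent.Lib.Helper90.G2S
open scoped MatrixGroups

variable {F : Type*} [Field F]

/-- [ALT] -/
theorem alt_id (u v : Fin 8 → F) (hu : tr8 u = 0) : zornMul u (zornMul u v) = (- nm8 u) • v := by
  have h7 : u 7 = - u 0 := by
    unfold tr8 at hu
    linear_combination hu
  ext i
  fin_cases i <;> simp [zornMul, dot3, cross3, nm8, h7, zA, zB] <;> ring

end Cfsg.Agent.Lib.Helper93.GP3
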