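import Cfsg.Agent.Lib.Helper93.GP3.Defs
import Cfsg.Agent.Lib.Helper93.GP3.TRN

/-! Ladder GP3, rung C21: an element of order 3 commuting with `x` fixes the 9 fixed vectors of `x`. -/

set_option autoImplicit false

namespace Cfsg.Agent.Lib.Helper93.GP3

open Cfsg.Lie Matrix Cfsg.Agent.Lib.Helper90.G2S
open scoped MatrixGroups

variable {F : Type*} [Field F]

theorem c21_two_ne [Fintype F] (hF : Fintype.card F = 3) : (2 : F) ≠ 0 := by
  have h3 : ((3 : ℕ) : F) = 0 := by rw [← hF]; exact FiniteField.cast_card_eq_zero F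
  intro h2
  have : (1 : F) = 0 := by
    have h3' : (3 : F) = 0 := by exact_mod_cast h3
    linear_combination h3' - h2
  exact one_ne_zero this

theorem c21_tr_lin (a b : F) (v w : Fin 8 → F) :
    tr8 (a • v + b • w) = a * tr8 v + b * tr8 w := by
  simp [tr8]; ring

theorem c21_tr_one : tr8 (one8 : Fin 8 → F) = 2 := by
  simp [tr8, one8]; norm_num

theorem fix_le_fix [Fintype F] (hF : Fintype.card F = 3) (x g : G2 F) (hc : Commute x g)
    (hx : Nat.card (fixS x) = 9) (hg : g ^ 3 = 1) : fixS x ≤ fixS g := by
  have h2 := c21_two_ne hF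
  have h1C : one8 ∈ fixS x := act_one8 x
  have hgC : ∀ v ∈ fixS x, act g v ∈ fixS x := by
    intro v hv
    show act x (act g v) = act g v
    rw [← act_mul, hc.eq, act_mul, (mem_fixS x v).1 hv]
  -- step 1: a nonzero vector of trace zero
  obtain ⟨c, hcC, hct, hc0⟩ : ∃ c ∈ fixS x, tr8 c = 0 ∧ c ≠ 0 := by
    by_contra hcon
    push Not at hcon
    have hinj : Function.Injective (fun v : fixS x => tr8 v.1) := by
      intro v w h
      have h' : tr8 (v.1 - w.1) = 0 := by
        simp only [tr8, Pi.sub_apply] at h ⊢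
        linear_combination h
      have := hcon _ ((fixS x).sub_mem v.2 w.2) h'
      exact Subtype.ext (sub_eq_zero.1 this)
    have := Nat.card_le_card_of_injective _ hinj
    rw [hx, Nat.card_eq_fintype_card, hF] at this
    omega
  -- step 2: coordinates
  let φ : F × F → fixS x := fun p =>
    ⟨p.1 • one8 + p.2 • c, (fixS x).add_mem ((fixS x).smul_mem _ h1C) ((fixS x).smul_mem _ hcC)⟩
  have hφi : Function.Injective φ := by
    rintro ⟨a, b⟩ ⟨a', b'⟩ h
    have h' : a • one8 + b • c = a' • one8 + b' • c := congrArg (fun z : fixS x => z.1) h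
    have ht := congrArg tr8 h'
    rw [c21_tr_lin, c21_tr_lin, hct, c21_tr_one] at ht
    have ha : a = a' := by
      have : (a - a') * 2 = 0 := by linear_combination ht
      rcases mul_eq_zero.1 this with h | h
      · exact sub_eq_zero.1 h
      · exact absurd h h2
    subst ha
    have hb : (b - b') • c = 0 := by
      rw [sub_smul, sub_eq_zero]; exact add_left_cancel h'
    rcases smul_eq_zero.1 hb with h | h
    · rw [sub_eq_zero.1 h]
    · exact absurd h hc0
  have hφ : Function.Surjective φ := by
    have : Function.Bijective φ := hφi.bijective_of_nat_card_le (by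
      rw [hx, Nat.card_prod, Nat.card_eq_fintype_card, hF])
    exact this.2
  -- step 3
  obtain ⟨⟨a, b⟩, hab⟩ := hφ ⟨act g c, hgC c hcC⟩
  have hab' : a • one8 + b • c = act g c := congrArg (fun z : fixS x => z.1) hab
  have ha : a = 0 := by
    have ht := congrArg tr8 hab'
    rw [c21_tr_lin, hct, c21_tr_one, (tr_nm_act g c).1, hct] at ht
    rcases mul_eq_zero.1 (show a * 2 = 0 by linear_combination ht) with h | h
    · exact h
    · exact absurd h h2
  have hgc : act g c = b • c := by rw [← hab', ha]; simp
  have hb : b = 1 := by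
    have h3 : act (g ^ 3) c = (b ^ 3) • c := by
      rw [pow_succ, pow_two, act_mul, act_mul, hgc, act_smul, hgc, act_smul, act_smul, hgc,
        smul_smul, smul_smul]
      congr 1
      ring
    rw [hg, act_one] at h3
    have hb3 : b ^ 3 = b := by
      have := FiniteField.pow_card b
      rwa [hF] at this
    rw [hb3] at h3
    have : (b - 1) • c = 0 := by rw [sub_smul, one_smul, ← h3, sub_self]
    rcases smul_eq_zero.1 this with h | h
    · exact sub_eq_zero.1 h
    · exact absurd h hc0
  intro v hv
  obtain ⟨⟨a', b'⟩, hv'⟩ := hφ ⟨v, hv⟩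
  have hv'' : a' • one8 + b' • c = v := congrArg (fun z : fixS x => z.1) hv'
  show act g v = v
  rw [← hv'', act_add, act_smul, act_smul, act_one8, hgc, hb, one_smul]

end Cfsg.Agent.Lib.Helper93.GP3
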