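import Cfsg.Agent.Lib.Helper93.GP3.Defs
import Cfsg.Agent.Lib.Helper90.G2S.O4
import Cfsg.Agent.Lib.Helper90.G2S.O8

set_option autoImplicit false

namespace Cfsg.Agent.Lib.Helper93.GP3

open Cfsg.Lie Matrix Cfsg.Agent.Lib.Helper90.G2S
open scoped MatrixGroups

variable {F : Type*} [Field F]

/-- the matrix of order 6 in `SL₃(3)`. -/
def ex6M (F : Type*) [Field F] : Matrix (Fin 3) (Fin 3) F := !![-1, -1, 0; 0, -1, 0; 0, 0, 1]

theorem ex6_det : (ex6M F).det = 1 := by
  simp [ex6M, Matrix.det_fin_three]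

theorem ex6_sq : ex6M F * ex6M F = !![1, 2, 0; 0, 1, 0; 0, 0, 1] := by
  ext i j
  fin_cases i <;> fin_cases j <;> simp [ex6M, Matrix.mul_apply, Fin.sum_univ_three] <;> norm_num

theorem ex6_cube (h3 : (3 : F) = 0) :
    ex6M F * ex6M F * ex6M F = !![-1, 0, 0; 0, -1, 0; 0, 0, 1] := by
  rw [ex6_sq]
  ext i j
  fin_cases i <;> fin_cases j <;> simp [ex6M, Matrix.mul_apply, Fin.sum_univ_three]
  linear_combination -h3

theorem ex6_six (h3 : (3 : F) = 0) :
    (ex6M F * ex6M F * ex6M F) * (ex6M F * ex6M F * ex6M F) = 1 := by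
  rw [ex6_cube h3]
  ext i j
  fin_cases i <;> fin_cases j <;> simp [Matrix.mul_apply, Fin.sum_univ_three]

/-- [EX6] an element of order 6 of `G₂(3)`. -/
theorem ex6 [Fintype F] (hF : Fintype.card F = 3) : ∃ y : G2 F, orderOf y = 6 := by
  have h3 : (3 : F) = 0 := by
    have h := FiniteField.cast_card_eq_zero F
    rw [hF] at h
    exact_mod_cast h
  have h2 : (2 : F) ≠ 0 := by
    intro h
    have : (1 : F) = 0 := by linear_combination h3 - h
    exact one_ne_zero this
  obtain ⟨ι, hι⟩ := exists_iota (F := F)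
  have hinj : Function.Injective ι := fun s s' h => o8_actsAs_inj (hι s) (h ▸ hι s')
  let s : SpecialLinearGroup (Fin 3) F := ⟨ex6M F, ex6_det⟩
  refine ⟨ι s, ?_⟩
  rw [orderOf_injective ι hinj]
  have hs2 : s ^ 2 ≠ 1 := by
    intro h
    have h' := congrArg (fun t : SpecialLinearGroup (Fin 3) F => (t : Matrix (Fin 3) (Fin 3) F) 0 1) h
    simp only [SpecialLinearGroup.coe_pow, SpecialLinearGroup.coe_one, pow_two] at h'
    change (ex6M F * ex6M F) 0 1 = _ at h'
    rw [ex6_sq] at h'
    simp at h'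
    exact h2 h'
  have hs3 : s ^ 3 ≠ 1 := by
    intro h
    have h' := congrArg (fun t : SpecialLinearGroup (Fin 3) F => (t : Matrix (Fin 3) (Fin 3) F) 0 0) h
    simp only [SpecialLinearGroup.coe_pow, SpecialLinearGroup.coe_one, pow_succ, pow_zero, one_mul] at h'
    change (ex6M F * ex6M F * ex6M F) 0 0 = _ at h'
    rw [ex6_cube h3] at h'
    simp at h'
    apply h2
    linear_combination -h'
  have hs6 : s ^ 6 = 1 := by
    have h6 : (s ^ 6 : SpecialLinearGroup (Fin 3) F) = (s * s * s) * (s * s * s) := by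
      simp only [pow_succ, pow_zero, one_mul, mul_assoc]
    rw [h6]
    apply Subtype.ext
    exact ex6_six h3
  refine orderOf_eq_of_pow_and_pow_div_prime (by norm_num) hs6 ?_
  intro p hp hd
  have hle : p ≤ 6 := Nat.le_of_dvd (by norm_num) hd
  interval_cases p
  · exact absurd hp (by norm_num)
  · exact absurd hp (by norm_num)
  · exact hs3
  · exact hs2
  · exact absurd hp (by norm_num)
  · exact absurd hd (by norm_num)
  · exact absurd hp (by norm_num)

end Cfsg.Agent.Lib.Helper93.GP3
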