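import Cfsg.Agent.Lib.Helper93.GP3.Defs
import Cfsg.Agent.Lib.Helper93.GP3.TRN
import Cfsg.Agent.Lib.Helper93.GP3.ALT

/-! Ladder GP3, rung INVB: the two eigenspaces of an involution have the same size. -/

set_option autoImplicit false

namespace Cfsg.Agent.Lib.Helper93.GP3

open Cfsg.Lie Matrix Cfsg.Agent.Lib.Helper90.G2S
open scoped MatrixGroups

variable {F : Type*} [Field F]

theorem invb_neg_left (u x : Fin 8 → F) : zornMul (-u) x = - zornMul u x := by
  ext i; fin_cases i <;> simp [zornMul, dot3, cross3] <;> try ring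

theorem invb_neg_neg (u x : Fin 8 → F) : zornMul (-u) (-x) = zornMul u x := by
  ext i; fin_cases i <;> simp [zornMul, dot3, cross3] <;> try ring

theorem invb_tr (h2 : (2 : F) ≠ 0) (g : G2 F) (u : Fin 8 → F) (hu : act g u = -u) :
    tr8 u = 0 := by
  have h := (tr_nm_act g u).1
  rw [hu] at h
  have h' : -(u 0) + -(u 7) = u 0 + u 7 := h
  have h3 : (2 : F) * (u 0 + u 7) = 0 := by linear_combination -h'
  rcases mul_eq_zero.1 h3 with h4 | h4
  · exact absurd h4 h2
  · exact h4

theorem invb_inj (u : Fin 8 → F) (ht : tr8 u = 0) (hn : nm8 u ≠ 0) :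
    Function.Injective (zornMul u) := by
  intro x y h
  have h1 : zornMul u (zornMul u x) = zornMul u (zornMul u y) := by rw [h]
  rw [alt_id u x ht, alt_id u y ht] at h1
  exact smul_right_injective _ (neg_ne_zero.2 hn) h1

theorem card_fix_eq_neg [Finite F] (h2 : (2 : F) ≠ 0) (g : G2 F) (u : Fin 8 → F) (hu : act g u = -u)
    (hn : nm8 u ≠ 0) : Nat.card (fixS g) = Nat.card (negS g) := by
  have ht := invb_tr h2 g u hu
  have hinj := invb_inj u ht hn
  apply le_antisymm
  · refine Nat.card_le_card_of_injective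
      (fun x : fixS g => (⟨zornMul u x.1, ?_⟩ : negS g)) ?_
    · show act g (zornMul u x.1) = - zornMul u x.1
      rw [act_zornMul, hu, (mem_fixS g x.1).1 x.2, invb_neg_left]
    · intro x y h
      exact Subtype.ext (hinj (congrArg (fun z : negS g => z.1) h))
  · refine Nat.card_le_card_of_injective
      (fun x : negS g => (⟨zornMul u x.1, ?_⟩ : fixS g)) ?_
    · show act g (zornMul u x.1) = zornMul u x.1
      rw [act_zornMul, hu, (mem_negS g x.1).1 x.2, invb_neg_neg]
    · intro x y h
      exact Subtype.ext (hinj (congrArg (fun z : fixS g => z.1) h))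

end Cfsg.Agent.Lib.Helper93.GP3
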