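import Cfsg.Agent.Lib.Helper93.GP3.Defs

set_option autoImplicit false

namespace Cfsg.Agent.Lib.Helper93.GP3

open Cfsg.Lie Matrix Cfsg.Agent.Lib.Helper90.G2S
open scoped MatrixGroups

variable {F : Type*} [Field F]

theorem invs_act_neg (g : G2 F) (x : Fin 8 → F) : act g (-x) = - act g x := by
  rw [← neg_one_smul F x, act_smul, neg_one_smul]

theorem invs_act_sub (g : G2 F) (x y : Fin 8 → F) : act g (x - y) = act g x - act g y := by
  rw [sub_eq_add_neg, act_add, invs_act_neg, ← sub_eq_add_neg]

theorem invs_act_act (g : G2 F) (hg : g * g = 1) (x : Fin 8 → F) : act g (act g x) = x := by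
  rw [← act_mul, hg, act_one]

/-- [INVS] -/
theorem card_fix_mul_neg [Fintype F] (h2 : (2 : F) ≠ 0) (g : G2 F) (hg : g * g = 1) :
    Nat.card (fixS g) * Nat.card (negS g) = Fintype.card F ^ 8 := by
  have e : (Fin 8 → F) ≃ fixS g × negS g :=
    { toFun := fun x => (⟨(2 : F)⁻¹ • (x + act g x), by
          rw [mem_fixS, act_smul, act_add, invs_act_act g hg, add_comm]⟩,
        ⟨(2 : F)⁻¹ • (x - act g x), by
          rw [mem_negS, act_smul, invs_act_sub, invs_act_act g hg, ← smul_neg, neg_sub]⟩)
      invFun := fun ab => ab.1.1 + ab.2.1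
      left_inv := by
        intro x
        show (2 : F)⁻¹ • (x + act g x) + (2 : F)⁻¹ • (x - act g x) = x
        rw [← smul_add, add_add_sub_cancel, ← two_smul F x, smul_smul, inv_mul_cancel₀ h2,
          one_smul]
      right_inv := by
        rintro ⟨⟨a, ha⟩, ⟨b, hb⟩⟩
        rw [mem_fixS] at ha
        rw [mem_negS] at hb
        apply Prod.ext
        · apply Subtype.ext
          show (2 : F)⁻¹ • (a + b + act g (a + b)) = a
          rw [act_add, ha, hb]
          have : a + b + (a + -b) = (2 : F) • a := by rw [two_smul]; abel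
          rw [this, smul_smul, inv_mul_cancel₀ h2, one_smul]
        · apply Subtype.ext
          show (2 : F)⁻¹ • (a + b - act g (a + b)) = b
          rw [act_add, ha, hb]
          have : a + b - (a + -b) = (2 : F) • b := by rw [two_smul]; abel
          rw [this, smul_smul, inv_mul_cancel₀ h2, one_smul] }
  rw [← Nat.card_prod, ← Nat.card_congr e, Nat.card_eq_fintype_card, Fintype.card_fun,
    Fintype.card_fin]

end Cfsg.Agent.Lib.Helper93.GP3
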