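import Cfsg.Agent.Lib.Helper93.GP3.Defs

set_option autoImplicit false

namespace Cfsg.Agent.Lib.Helper93.GP3

open Cfsg.Lie Matrix Cfsg.Agent.Lib.Helper90.G2S
open scoped MatrixGroups

variable {F : Type*} [Field F]

theorem ndg_polar (w z : Fin 8 → F) : nm8 (w + z) - nm8 w - nm8 z =
    w 0 * z 7 + w 7 * z 0 - (w 1 * z 4 + w 4 * z 1 + w 2 * z 5 + w 5 * z 2 + w 3 * z 6 + w 6 * z 3) := by
  simp only [nm8, Pi.add_apply]
  ring

/-- [NDG] -/
theorem polar_nondeg (w : Fin 8 → F) (hw : w ≠ 0) : ∃ z : Fin 8 → F, nm8 (w + z) - nm8 w - nm8 z ≠ 0 := by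
  obtain ⟨i, hi⟩ := Function.ne_iff.1 hw
  have hi' : w i ≠ 0 := hi
  fin_cases i
  · exact ⟨Pi.single 7 1, by rw [ndg_polar]; simpa using hi'⟩
  · exact ⟨Pi.single 4 1, by rw [ndg_polar]; simpa using hi'⟩
  · exact ⟨Pi.single 5 1, by rw [ndg_polar]; simpa using hi'⟩
  · exact ⟨Pi.single 6 1, by rw [ndg_polar]; simpa using hi'⟩
  · exact ⟨Pi.single 1 1, by rw [ndg_polar]; simpa using hi'⟩
  · exact ⟨Pi.single 2 1, by rw [ndg_polar]; simpa using hi'⟩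
  · exact ⟨Pi.single 3 1, by rw [ndg_polar]; simpa using hi'⟩
  · exact ⟨Pi.single 0 1, by rw [ndg_polar]; simpa using hi'⟩

end Cfsg.Agent.Lib.Helper93.GP3
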