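import Cfsg.Agent.Lib.Helper93.GP3.Defs
import Cfsg.Agent.Lib.Helper93.GP3.TRN
import Cfsg.Agent.Lib.Helper93.GP3.NDG

set_option autoImplicit false

namespace Cfsg.Agent.Lib.Helper93.GP3

open Cfsg.Lie Matrix Cfsg.Agent.Lib.Helper90.G2S
open scoped MatrixGroups

variable {F : Type*} [Field F]

theorem invu_neg (a b : Fin 8 → F) :
    nm8 (-a + b) - nm8 (-a) - nm8 b = -(nm8 (a + b) - nm8 a - nm8 b) := by
  simp only [nm8, Pi.add_apply, Pi.neg_apply]
  ring

theorem invu_sub (w z y : Fin 8 → F) :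
    nm8 (w + (z - y)) - nm8 w - nm8 (z - y) =
      2 * (nm8 (w + z) - nm8 w - nm8 z) - (nm8 (w + (z + y)) - nm8 w - nm8 (z + y)) := by
  simp only [nm8, Pi.add_apply, Pi.sub_apply]
  ring

theorem invu_act_neg (g : G2 F) (x : Fin 8 → F) : act g (-x) = - act g x := by
  have h := act_smul g (-1) x
  simpa using h

theorem invu_act_sub (g : G2 F) (x y : Fin 8 → F) : act g (x - y) = act g x - act g y := by
  rw [sub_eq_add_neg, act_add, invu_act_neg, ← sub_eq_add_neg]

/-- [INVU] -/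
theorem exists_neg_unit (h2 : (2 : F) ≠ 0) (g : G2 F) (hg : g * g = 1) (hg1 : g ≠ 1) :
    ∃ u : Fin 8 → F, act g u = -u ∧ nm8 u ≠ 0 := by
  have hgg : ∀ x, act g (act g x) = x := by
    intro x
    rw [← act_mul, hg, act_one]
  obtain ⟨x, hx⟩ : ∃ x, act g x ≠ x := by
    by_contra hcon
    push Not at hcon
    exact hg1 (act_ext (fun x => by rw [hcon x, act_one]))
  obtain ⟨w, hw⟩ : ∃ w, w = x - act g x := ⟨_, rfl⟩
  have hw0 : w ≠ 0 := by
    rw [hw]
    intro h
    exact hx (sub_eq_zero.mp h).symm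
  have hgw : act g w = -w := by
    rw [hw, invu_act_sub, hgg, neg_sub]
  obtain ⟨z, hz⟩ := polar_nondeg w hw0
  obtain ⟨z', hz'⟩ : ∃ z', z' = z - act g z := ⟨_, rfl⟩
  have hgz' : act g z' = -z' := by
    rw [hz', invu_act_sub, hgg, neg_sub]
  have hgs : act g (z + act g z) = z + act g z := by
    rw [act_add, hgg, add_comm]
  have hinv : ∀ a b : Fin 8 → F, nm8 (act g a + act g b) - nm8 (act g a) - nm8 (act g b) =
      nm8 (a + b) - nm8 a - nm8 b := by
    intro a b
    rw [← act_add, (tr_nm_act g (a + b)).2, (tr_nm_act g a).2, (tr_nm_act g b).2]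
  have hs0 : nm8 (w + (z + act g z)) - nm8 w - nm8 (z + act g z) = 0 := by
    have h1 := hinv w (z + act g z)
    rw [hgw, hgs, invu_neg] at h1
    have h3 : (2 : F) * (nm8 (w + (z + act g z)) - nm8 w - nm8 (z + act g z)) = 0 := by
      linear_combination -h1
    rcases mul_eq_zero.mp h3 with h | h
    · exact absurd h h2
    · exact h
  have hB : nm8 (w + z') - nm8 w - nm8 z' ≠ 0 := by
    rw [hz', invu_sub, hs0, sub_zero]
    exact mul_ne_zero h2 hz
  by_cases h1 : nm8 w = 0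
  · by_cases h3 : nm8 z' = 0
    · refine ⟨w + z', ?_, ?_⟩
      · rw [act_add, hgw, hgz', neg_add]
      · intro h
        apply hB
        rw [h, h1, h3]
        ring
    · exact ⟨z', hgz', h3⟩
  · exact ⟨w, hgw, h1⟩

end Cfsg.Agent.Lib.Helper93.GP3
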