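import Cfsg.Agent.Lib.Helper93.GP3.Defs
import Cfsg.Agent.Lib.Helper93.GP3.INVU
import Cfsg.Agent.Lib.Helper93.GP3.INVB
import Cfsg.Agent.Lib.Helper93.GP3.INVS

set_option autoImplicit false

namespace Cfsg.Agent.Lib.Helper93.GP3

open Cfsg.Lie Matrix Cfsg.Agent.Lib.Helper90.G2S
open scoped MatrixGroups

variable {F : Type*} [Field F]

/-- [INV4] -/
theorem card_fix_invol [Fintype F] (h2 : (2 : F) ≠ 0) (g : G2 F) (hg : g * g = 1) (hg1 : g ≠ 1) :
    Nat.card (fixS g) = Fintype.card F ^ 4 := by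
  obtain ⟨u, hu, hn⟩ := exists_neg_unit h2 g hg hg1
  have h1 := card_fix_eq_neg h2 g u hu hn
  have h3 := card_fix_mul_neg h2 g hg
  rw [← h1] at h3
  have h4 : Nat.card (fixS g) * Nat.card (fixS g) = Fintype.card F ^ 4 * Fintype.card F ^ 4 := by
    rw [h3]; ring
  exact Nat.mul_self_inj.mp h4

end Cfsg.Agent.Lib.Helper93.GP3
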