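import Cfsg.Agent.Lib.Helper93.GP3.Defs

set_option autoImplicit false

namespace Cfsg.Agent.Lib.Helper93.GP3

open Cfsg.Lie Matrix Cfsg.Agent.Lib.Helper90.G2S
open scoped MatrixGroups

variable {F : Type*} [Field F]

/-- [POW3] the order of a subspace of `F_3^8` is `3^d`, `d ≤ 8`. -/
theorem card_sub [Fintype F] (hF : Fintype.card F = 3) (U : Submodule F (Fin 8 → F)) :
    ∃ d, d ≤ 8 ∧ Nat.card U = 3 ^ d := by
  refine ⟨Module.finrank F U, ?_, ?_⟩
  · have h := Submodule.finrank_le U
    rwa [Module.finrank_fin_fun] at h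
  · rw [Module.natCard_eq_pow_finrank (K := F) (V := U), Nat.card_eq_fintype_card, hF]

end Cfsg.Agent.Lib.Helper93.GP3
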