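import Mathlib

/-! Ladder GP3, rung NIL3: `|V| ≤ |ker N|^3` if `N^3 = 0`. -/

set_option autoImplicit false

namespace Cfsg.Agent.Lib.Helper93.GP3

variable {F : Type*} [Field F]

theorem nil3_step {V : Type*} [AddCommGroup V] [Module F V] [Finite V] (N : V →ₗ[F] V)
    (W : Submodule F V) :
    Nat.card W ≤ Nat.card (LinearMap.ker N) * Nat.card (W.map N) := by
  have h1 : Nat.card W = Nat.card (LinearMap.ker (N.domRestrict W)) *
      Nat.card (W ⧸ LinearMap.ker (N.domRestrict W)) :=
    Submodule.card_eq_card_quotient_mul_card _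
  have h2 : Nat.card (W ⧸ LinearMap.ker (N.domRestrict W)) = Nat.card (W.map N) := by
    rw [Nat.card_congr (N.domRestrict W).quotKerEquivRange.toEquiv, LinearMap.range_domRestrict]
  have h3 : Nat.card (LinearMap.ker (N.domRestrict W)) ≤ Nat.card (LinearMap.ker N) := by
    refine Nat.card_le_card_of_injective
      (fun x => (⟨x.1.1, x.2⟩ : LinearMap.ker N)) ?_
    intro x y h
    apply Subtype.ext
    apply Subtype.ext
    exact congrArg (fun z : LinearMap.ker N => z.1) h
  rw [h1, h2]
  exact Nat.mul_le_mul_right _ h3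

theorem nil3 {V : Type*} [AddCommGroup V] [Module F V] [Finite V] (N : V →ₗ[F] V)
    (hN : N ∘ₗ N ∘ₗ N = 0) : Nat.card V ≤ Nat.card (LinearMap.ker N) ^ 3 := by
  have h0 : Nat.card V = Nat.card (⊤ : Submodule F V) :=
    (Nat.card_congr (Submodule.topEquiv (R := F) (M := V)).toEquiv).symm
  have h1 := nil3_step N (⊤ : Submodule F V)
  have h2 := nil3_step N ((⊤ : Submodule F V).map N)
  have h3 := nil3_step N (((⊤ : Submodule F V).map N).map N)
  have h4 : (((⊤ : Submodule F V).map N).map N).map N = ⊥ := by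
    rw [eq_bot_iff]
    rintro _ ⟨_, ⟨_, ⟨v, -, rfl⟩, rfl⟩, rfl⟩
    have := LinearMap.congr_fun hN v
    simpa using this
  rw [h4] at h3
  have h5 : Nat.card (⊥ : Submodule F V) = 1 := by simp
  rw [h5, mul_one] at h3
  rw [h0]
  set k := Nat.card (LinearMap.ker N)
  calc Nat.card (⊤ : Submodule F V) ≤ k * Nat.card ((⊤ : Submodule F V).map N) := h1
    _ ≤ k * (k * Nat.card (((⊤ : Submodule F V).map N).map N)) := Nat.mul_le_mul_left _ h2
    _ ≤ k * (k * k) := Nat.mul_le_mul_left _ (Nat.mul_le_mul_left _ h3)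
    _ = k ^ 3 := by ring

end Cfsg.Agent.Lib.Helper93.GP3
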