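import Cfsg.Agent.Lib.Helper93.GP3.Defs
import Cfsg.Agent.Lib.Helper93.GP3.NIL3

set_option autoImplicit false

namespace Cfsg.Agent.Lib.Helper93.GP3

open Cfsg.Lie Matrix Cfsg.Agent.Lib.Helper90.G2S
open scoped MatrixGroups

variable {F : Type*} [Field F]

theorem uni3_three [Fintype F] (hF : Fintype.card F = 3) : (3 : F) = 0 := by
  have h := FiniteField.cast_card_eq_zero F
  rw [hF] at h
  exact_mod_cast h

theorem uni3_card [Fintype F] (hF : Fintype.card F = 3) : Nat.card (Fin 8 → F) = 3 ^ 8 := by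
  rw [Nat.card_eq_fintype_card, Fintype.card_fun, hF, Fintype.card_fin]

/-- [UNI3] -/
theorem card_fix3 [Fintype F] (hF : Fintype.card F = 3) (g : G2 F) (hg : g ^ 3 = 1) :
    3 ^ 8 ≤ Nat.card (fixS g) ^ 3 := by
  have h3 : (3 : F) = 0 := uni3_three hF
  obtain ⟨M, hM⟩ : ∃ M : Matrix (Fin 8) (Fin 8) F, M = ((g : GL (Fin 8) F) : Matrix (Fin 8) (Fin 8) F) :=
    ⟨_, rfl⟩
  have hM3 : M ^ 3 = 1 := by
    have h1 : (((g ^ 3 : G2 F) : GL (Fin 8) F) : Matrix (Fin 8) (Fin 8) F) = 1 := by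
      rw [hg]; rfl
    rw [hM]
    simpa using h1
  have hN3 : (M - 1) * ((M - 1) * (M - 1)) = 0 := by
    have h1 : (M - 1) * ((M - 1) * (M - 1)) = M ^ 3 - 1 - (3 : F) • (M * M - M) := by
      have h4 : (3 : F) • (M * M - M) = (M * M - M) + (M * M - M) + (M * M - M) := by
        have : (3 : F) = 1 + 1 + 1 := by norm_num
        rw [this, add_smul, add_smul, one_smul]
      rw [h4]
      noncomm_ring
    rw [h1, hM3, h3, zero_smul]
    simp
  have hker : LinearMap.ker (Matrix.toLin' (M - 1)) = fixS g := by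
    ext v
    rw [LinearMap.mem_ker, Matrix.toLin'_apply, Matrix.sub_mulVec, Matrix.one_mulVec, sub_eq_zero,
      mem_fixS, hM]
    rfl
  have h := nil3 (Matrix.toLin' (M - 1)) (by
    rw [← Matrix.toLin'_mul, ← Matrix.toLin'_mul, hN3, map_zero])
  rw [uni3_card hF, hker] at h
  exact h

end Cfsg.Agent.Lib.Helper93.GP3
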