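import Cfsg.Agent.Lib.Helper93.GP3.Defs
import Cfsg.Agent.Lib.Helper93.GP3.FIX7
import Cfsg.Agent.Lib.Helper93.GP3.C21
import Cfsg.Agent.Lib.Helper93.GP3.UNI3
import Cfsg.Agent.Lib.Helper93.GP3.MOD7
import Cfsg.Agent.Lib.Helper93.GP3.POW3

set_option autoImplicit false

namespace Cfsg.Agent.Lib.Helper93.GP3

open Cfsg.Lie Matrix Cfsg.Agent.Lib.Helper90.G2S
open scoped MatrixGroups

variable {F : Type*} [Field F]

theorem no21_top [Fintype F] (hF : Fintype.card F = 3) (g : G2 F)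
    (h : Nat.card (fixS g) = 3 ^ 8) : g = 1 := by
  have hinj : Function.Injective (Subtype.val : fixS g → (Fin 8 → F)) := Subtype.val_injective
  have hbij := hinj.bijective_of_nat_card_le (by rw [h, uni3_card hF])
  apply act_ext
  intro v
  obtain ⟨u, hu⟩ := hbij.2 v
  rw [act_one, ← hu]
  exact u.2

/-- [NO21] -/
theorem no21 [Fintype F] (hF : Fintype.card F = 3) (y : G2 F) : orderOf y ≠ 21 := by
  intro hy
  have hy21 : y ^ 21 = 1 := by rw [← hy]; exact pow_orderOf_eq_one y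
  have hx7 : (y ^ 3) ^ 7 = 1 := by rw [← pow_mul]; exact hy21
  have hg3 : (y ^ 7) ^ 3 = 1 := by rw [← pow_mul]; exact hy21
  have hx1 : y ^ 3 ≠ 1 := pow_ne_one_of_lt_orderOf (by norm_num) (by rw [hy]; norm_num)
  have hg1 : y ^ 7 ≠ 1 := pow_ne_one_of_lt_orderOf (by norm_num) (by rw [hy]; norm_num)
  have hc : Commute (y ^ 3) (y ^ 7) := (Commute.refl y).pow_pow 3 7
  have h9 := card_fix7 hF (y ^ 3) hx7 hx1
  have hle := fix_le_fix hF (y ^ 3) (y ^ 7) hc h9 hg3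
  have hinvar : ∀ v ∈ fixS (y ^ 7), act (y ^ 3) v ∈ fixS (y ^ 7) := by
    intro v hv
    rw [mem_fixS] at hv ⊢
    rw [← act_mul, ← hc.eq, act_mul, hv]
  have hmod := mod7 (y ^ 3) hx7 (fixS (y ^ 7)) hinvar
  rw [inf_eq_right.mpr hle, h9] at hmod
  obtain ⟨d, hd, hcard⟩ := card_sub hF (fixS (y ^ 7))
  have huni := card_fix3 hF (y ^ 7) hg3
  rw [hcard] at hmod huni
  have hd8 : d = 8 := by
    interval_cases d <;> first | rfl | (exfalso; revert hmod huni; decide)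
  rw [hd8] at hcard
  exact hg1 (no21_top hF _ hcard)

end Cfsg.Agent.Lib.Helper93.GP3
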