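import Cfsg.Agent.Lib.Helper46.SL2Spectrum
import Cfsg.Agent.Lib.Helper6.SLCard

set_option autoImplicit false

namespace Cfsg.Agent.Lib.Helper93.GP3

open Matrix

/-- [PSL] the facts on `PSL₂(13)`. -/
theorem psl13 {E : Type*} [Field E] [Fintype E] (hE : Fintype.card E = 13) :
    Nat.card (Matrix.ProjectiveSpecialLinearGroup (Fin 2) E) = 1092 ∧
    (∃ y : Matrix.ProjectiveSpecialLinearGroup (Fin 2) E, orderOf y = 6) ∧
    ∀ y : Matrix.ProjectiveSpecialLinearGroup (Fin 2) E, y ^ 6 = 1 ∨ y ^ 7 = 1 ∨ y ^ 13 = 1 := by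
  have : Fact (Nat.Prime 13) := ⟨by norm_num⟩
  have hch : CharP E 13 := by
    obtain ⟨p, hp⟩ := CharP.exists E
    obtain ⟨n, hpp, hn⟩ := FiniteField.card E p
    rw [hE] at hn
    have hdvd : p ∣ 13 := by
      rw [hn]
      exact dvd_pow_self p n.ne_zero
    have : p = 13 := by
      rcases (Nat.dvd_prime (by norm_num : Nat.Prime 13)).1 hdvd with h | h
      · exact absurd h hpp.ne_one
      · exact h
    subst this
    exact hp
  have h2 : (2 : E) ≠ 0 := by
    intro h
    have h' : ((2 : ℕ) : E) = 0 := by exact_mod_cast h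
    rw [CharP.cast_eq_zero_iff E 13] at h'
    omega
  refine ⟨?_, ?_, ?_⟩
  · have h := Cfsg.Agent.Lib.Helper6.card_PSL_field (F := E) 2 (by norm_num)
    rw [hE] at h
    simp only [Fin.prod_univ_two] at h
    norm_num at h
    omega
  · obtain ⟨u, hu, hd⟩ := Cfsg.Agent.Lib.Helper46.exists_orderOf_card_sub_one (F := E)
    refine ⟨QuotientGroup.mk (Cfsg.Agent.Lib.Helper46.dd u), ?_⟩
    rw [Cfsg.Agent.Lib.Helper46.orderOf_mk _ (Or.inl h2), hd, hE]
    norm_num
  · intro y
    have h := Cfsg.Agent.Lib.Helper46.psl2_pow_cases (F := E) 13 y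
    rw [hE] at h
    norm_num at h
    rcases h with h | h | h
    · exact Or.inr (Or.inr h)
    · exact Or.inl h
    · exact Or.inr (Or.inl h)

end Cfsg.Agent.Lib.Helper93.GP3
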