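import Mathlib

/-! Ladder GP3 (helper93), rung S13 (helper56). -/

set_option autoImplicit false

namespace Cfsg.Agent.Lib.Helper93.GP3

/-- [S13] -/
theorem s13 {G : Type*} [Group G] [Finite G] (hG : Nat.card G = 4245696) (H : Subgroup G)
    (hH : Nat.card H = 13) (hC : Subgroup.centralizer (H : Set G) = H) (y : G) (s : ℕ) (hs : 1 < s) :
    orderOf y ≠ 13 * s := by
  intro hy
  haveI : Fact (Nat.Prime 13) := ⟨by norm_num⟩
  have hz : orderOf (y ^ s) = 13 := by
    rw [orderOf_pow_of_dvd (by omega) (by rw [hy]; exact Dvd.intro_left _ rfl), hy]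
    exact Nat.mul_div_cancel _ (by omega)
  have key : ∀ K : Subgroup G, Nat.card K = 13 → ∃ P : Sylow 13 G, (P : Subgroup G) = K := by
    intro K hK
    have hKp : IsPGroup 13 K := IsPGroup.of_card (n := 1) (by rw [hK]; norm_num)
    obtain ⟨P, hP⟩ := hKp.exists_le_sylow
    refine ⟨P, ?_⟩
    obtain ⟨n, hn⟩ := IsPGroup.iff_card.1 P.2
    have hdvd : Nat.card P ∣ Nat.card G := Subgroup.card_subgroup_dvd_card _
    have hle : Nat.card K ≤ Nat.card P := Subgroup.card_le_of_le hP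
    have hn1 : n = 1 := by
      rcases Nat.lt_or_ge n 2 with h | h
      · interval_cases n
        · rw [hn, hK] at hle; norm_num at hle
        · rfl
      · exfalso
        have h3 : 13 ^ 2 ∣ Nat.card G := (pow_dvd_pow 13 h).trans (hn ▸ hdvd)
        rw [hG] at h3
        norm_num at h3
    symm
    apply Subgroup.eq_of_le_of_card_ge hP
    rw [hn, hn1, hK]; norm_num
  obtain ⟨P, hP⟩ := key H hH
  obtain ⟨P', hP'⟩ := key (Subgroup.zpowers (y ^ s)) (by rw [Nat.card_zpowers, hz])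
  obtain ⟨c, hc⟩ := MulAction.exists_smul_eq G P' P
  have hmem : ∀ h ∈ H, ∃ k ∈ Subgroup.zpowers (y ^ s), h = c * k * c⁻¹ := by
    intro h hh
    rw [← hP, ← hc, Sylow.coe_subgroup_smul,
      Subgroup.mem_smul_pointwise_iff_exists] at hh
    obtain ⟨k, hk, rfl⟩ := hh
    rw [hP'] at hk
    exact ⟨k, hk, by simp [MulAut.smul_def]⟩
  have hw : c * y * c⁻¹ ∈ Subgroup.centralizer (H : Set G) := by
    rw [Subgroup.mem_centralizer_iff]
    intro h hh
    obtain ⟨k, hk, rfl⟩ := hmem h hh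
    obtain ⟨j, rfl⟩ := Subgroup.mem_zpowers_iff.1 hk
    have hcomm : Commute ((y ^ s) ^ j) y := ((Commute.refl y).pow_left s).zpow_left j
    calc c * (y ^ s) ^ j * c⁻¹ * (c * y * c⁻¹) = c * ((y ^ s) ^ j * y) * c⁻¹ := by group
      _ = c * (y * (y ^ s) ^ j) * c⁻¹ := by rw [hcomm.eq]
      _ = _ := by group
  rw [hC] at hw
  have ho : orderOf (c * y * c⁻¹) = orderOf y := by
    have := orderOf_injective (MulAut.conj c).toMonoidHom (MulAut.conj c).injective y
    simpa using this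
  have hd : orderOf (c * y * c⁻¹) ∣ 13 := by
    have h1 : orderOf (⟨c * y * c⁻¹, hw⟩ : H) ∣ Nat.card H := orderOf_dvd_natCard _
    rw [hH] at h1
    rwa [← Subgroup.orderOf_coe] at h1
  rw [ho, hy] at hd
  have := Nat.le_of_dvd (by norm_num) hd
  omega

end Cfsg.Agent.Lib.Helper93.GP3
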