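import Cfsg.Agent.Lib.Helper93.GP3.NO14
import Cfsg.Agent.Lib.Helper93.GP3.NO21
import Cfsg.Agent.Lib.Helper93.GP3.EX6
import Cfsg.Agent.Lib.Helper93.GP3.S13
import Cfsg.Agent.Lib.Helper93.GP3.ABSM
import Cfsg.Agent.Lib.Helper93.GP3.PSL
import Cfsg.Prelude.Def_LieChev

/-! Ladder GP3: assembly (light part: the three heavy facts are hypotheses). -/

set_option autoImplicit false

namespace Cfsg.Agent.Lib.Helper93.GP3

open Cfsg.Lie Matrix Cfsg.Agent.Lib.Helper90.G2S
open scoped MatrixGroups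

variable {F : Type*} [Field F]

theorem main_of [Fintype F] (hF : Fintype.card F = 3) {E : Type*} [Field E] [Fintype E]
    (hE : Fintype.card E = 13) (e : G2 F ≃* chevG2.group F)
    (hG : Nat.card ↥(chevG2.group F) = 4245696)
    (H : Subgroup ↥(chevG2.group F)) (hH : Nat.card ↥H = 13)
    (hC : Subgroup.centralizer (H : Set ↥(chevG2.group F)) = H) :
    ((∀ r : ℕ, r.Prime → (r ∣ Nat.card ↥(Cfsg.Lie.chevG2.group F) ↔ r ∣ Nat.card (Matrix.ProjectiveSpecialLinearGroup (Fin 2) E))) ∧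
      (∀ r s : ℕ, r.Prime → s.Prime → r ≠ s → ((∃ x : ↥(Cfsg.Lie.chevG2.group F), orderOf x = r * s) ↔ (∃ y : (Matrix.ProjectiveSpecialLinearGroup (Fin 2) E), orderOf y = r * s)))) := by
  obtain ⟨hP, p6, pc⟩ := psl13 hE
  have : Finite ↥(chevG2.group F) := Nat.finite_of_card_ne_zero (by rw [hG]; norm_num)
  have : Finite (Matrix.ProjectiveSpecialLinearGroup (Fin 2) E) :=
    Nat.finite_of_card_ne_zero (by rw [hP]; norm_num)
  refine abs_main hG hP ?_ ?_ ?_ ?_ p6 pc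
  · intro y
    rw [← MulEquiv.orderOf_eq e.symm y]
    exact no14 hF _
  · intro y
    rw [← MulEquiv.orderOf_eq e.symm y]
    exact no21 hF _
  · intro y s hs
    exact s13 hG H hH hC y s hs
  · obtain ⟨y, hy⟩ := ex6 hF
    exact ⟨e y, by rw [MulEquiv.orderOf_eq e y, hy]⟩

end Cfsg.Agent.Lib.Helper93.GP3
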