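import Cfsg.Agent.Lib.Helper93.GP3.Defs
import Cfsg.Agent.Lib.Helper93.GP3.MOD7
import Cfsg.Agent.Lib.Helper93.GP3.FIX7
import Cfsg.Agent.Lib.Helper93.GP3.INV4

set_option autoImplicit false

namespace Cfsg.Agent.Lib.Helper93.GP3

open Cfsg.Lie Matrix Cfsg.Agent.Lib.Helper90.G2S
open scoped MatrixGroups

variable {F : Type*} [Field F]

theorem no14_two_ne [Fintype F] (hF : Fintype.card F = 3) : (2 : F) ≠ 0 := by
  intro h2
  have h3 : ((Fintype.card F : ℕ) : F) = 0 := FiniteField.cast_card_eq_zero F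
  rw [hF] at h3
  have h4 : (1 : F) = 0 := by
    have : ((3 : ℕ) : F) = 2 + 1 := by norm_num
    rw [this, h2, zero_add] at h3
    exact h3
  exact one_ne_zero h4

/-- [NO14] -/
theorem no14 [Fintype F] (hF : Fintype.card F = 3) (y : G2 F) : orderOf y ≠ 14 := by
  intro ho
  have h2 := no14_two_ne hF
  have hy : y ^ 14 = 1 := by rw [← ho]; exact pow_orderOf_eq_one y
  have hx : (y ^ 2) ^ 7 = 1 := by rw [← pow_mul]; exact hy
  have hx1 : y ^ 2 ≠ 1 := by
    intro h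
    have := orderOf_dvd_of_pow_eq_one h
    rw [ho] at this
    omega
  have hg : y ^ 7 * y ^ 7 = 1 := by rw [← pow_add]; exact hy
  have hg1 : y ^ 7 ≠ 1 := by
    intro h
    have := orderOf_dvd_of_pow_eq_one h
    rw [ho] at this
    omega
  have hU : ∀ v ∈ fixS (y ^ 7), act (y ^ 2) v ∈ fixS (y ^ 7) := by
    intro v hv
    show act (y ^ 7) (act (y ^ 2) v) = act (y ^ 2) v
    have hv' : act (y ^ 7) v = v := hv
    rw [← act_mul, ← pow_add, show 7 + 2 = 2 + 7 from rfl, pow_add, act_mul, hv']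
  have hc1 := card_fix_invol h2 (y ^ 7) hg hg1
  rw [hF] at hc1
  have hc2 := card_fix7 hF (y ^ 2) hx hx1
  have h := mod7 (y ^ 2) hx (fixS (y ^ 7)) hU
  rw [hc1] at h
  obtain ⟨h3, -⟩ := fix7_card hF (fixS (y ^ 7) ⊓ fixS (y ^ 2))
  obtain ⟨h4, -⟩ := fix7_card hF (fixS (y ^ 2))
  have h5 : Module.finrank F ↥(fixS (y ^ 7) ⊓ fixS (y ^ 2)) ≤ Module.finrank F (fixS (y ^ 2)) :=
    Submodule.finrank_mono inf_le_right
  have h6 : Module.finrank F (fixS (y ^ 2)) = 2 := by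
    rw [hc2] at h4
    exact (Nat.pow_right_injective (by norm_num : 2 ≤ 3) (by simpa using h4 : 3 ^ 2 = 3 ^ _)).symm
  rw [h6] at h5
  rw [h3] at h
  generalize Module.finrank F ↥(fixS (y ^ 7) ⊓ fixS (y ^ 2)) = d at *
  unfold Nat.ModEq at h
  interval_cases d <;> simp_all

end Cfsg.Agent.Lib.Helper93.GP3
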